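import Cfsg.Agent.H327.D5.Base
import Cfsg.Agent.ClassicalGeometry.PSL2Basic

/-!
# Real elements of `SL₂(F)`
-/

set_option autoImplicit false

namespace Cfsg.Agent.H327.D5

open Matrix

variable {F : Type*} [Field F]

/-- entries -/
def en (g : SpecialLinearGroup (Fin 2) F) (i j : Fin 2) : F := (g : Matrix (Fin 2) (Fin 2) F) i j

theorem ext_two {g h : SpecialLinearGroup (Fin 2) F} (h00 : en g 0 0 = en h 0 0) (h01 : en g 0 1 = en h 0 1)
    (h10 : en g 1 0 = en h 1 0) (h11 : en g 1 1 = en h 1 1) : g = h := by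
  apply Subtype.ext
  ext i j
  fin_cases i <;> fin_cases j
  · exact h00
  · exact h01
  · exact h10
  · exact h11

theorem mul00 (g h : SpecialLinearGroup (Fin 2) F) : en (g * h) 0 0 = en g 0 0 * en h 0 0 + en g 0 1 * en h 1 0 := by
  rw [en, Matrix.SpecialLinearGroup.coe_mul, Matrix.mul_apply, Fin.sum_univ_two]; rfl
theorem mul01 (g h : SpecialLinearGroup (Fin 2) F) : en (g * h) 0 1 = en g 0 0 * en h 0 1 + en g 0 1 * en h 1 1 := by
  rw [en, Matrix.SpecialLinearGroup.coe_mul, Matrix.mul_apply, Fin.sum_univ_two]; rfl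
theorem mul10 (g h : SpecialLinearGroup (Fin 2) F) : en (g * h) 1 0 = en g 1 0 * en h 0 0 + en g 1 1 * en h 1 0 := by
  rw [en, Matrix.SpecialLinearGroup.coe_mul, Matrix.mul_apply, Fin.sum_univ_two]; rfl
theorem mul11 (g h : SpecialLinearGroup (Fin 2) F) : en (g * h) 1 1 = en g 1 0 * en h 0 1 + en g 1 1 * en h 1 1 := by
  rw [en, Matrix.SpecialLinearGroup.coe_mul, Matrix.mul_apply, Fin.sum_univ_two]; rfl

theorem det_eq (g : SpecialLinearGroup (Fin 2) F) : en g 0 0 * en g 1 1 - en g 0 1 * en g 1 0 = 1 := by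
  have := g.det_coe
  rwa [Matrix.det_fin_two] at this

/-- traceless matrices inverting `g` -/
theorem exists_of_abc {g : SpecialLinearGroup (Fin 2) F} {a b c : F}
    (hE : a * (en g 0 0 - en g 1 1) + b * en g 1 0 + c * en g 0 1 = 0) (hD : -a ^ 2 - b * c = 1) :
    ∃ h : SpecialLinearGroup (Fin 2) F, g * h * g = h := by
  have hd := det_eq g
  let h : SpecialLinearGroup (Fin 2) F := ⟨!![a, b; c, -a], by rw [Matrix.det_fin_two_of, ← hD]; ring⟩
  have e00 : en h 0 0 = a := rfl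
  have e01 : en h 0 1 = b := rfl
  have e10 : en h 1 0 = c := rfl
  have e11 : en h 1 1 = -a := rfl
  refine ⟨h, ext_two ?_ ?_ ?_ ?_⟩
  · rw [mul00, mul00, mul01, e00, e01, e10, e11]
    linear_combination en g 0 0 * hE + a * hd
  · rw [mul01, mul00, mul01, e00, e01, e10, e11]
    linear_combination en g 0 1 * hE + b * hd
  · rw [mul10, mul10, mul11, e00, e01, e10, e11]
    linear_combination en g 1 0 * hE + c * hd
  · rw [mul11, mul10, mul11, e00, e01, e10, e11]
    linear_combination en g 1 1 * hE - a * hd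

/-- powers of an element with double eigenvalue -/
theorem pow_entry {g : SpecialLinearGroup (Fin 2) F} {ε : F} (hε : ε ^ 2 = 1) (ht : en g 0 0 + en g 1 1 = 2 * ε) (n : ℕ) :
    (en (g ^ (n + 1)) 1 0 = (n + 1) * ε ^ n * en g 1 0) ∧ (en (g ^ (n + 1)) 0 1 = (n + 1) * ε ^ n * en g 0 1) ∧
      (en (g ^ (n + 1)) 0 0 = (n + 1) * ε ^ n * en g 0 0 - n * ε ^ (n + 1)) ∧
      (en (g ^ (n + 1)) 1 1 = (n + 1) * ε ^ n * en g 1 1 - n * ε ^ (n + 1)) := by
  have hd := det_eq g
  induction n with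
  | zero => simp
  | succ n ih =>
    obtain ⟨h1, h2, h3, h4⟩ := ih
    rw [pow_succ g (n + 1)]
    refine ⟨?_, ?_, ?_, ?_⟩
    · rw [mul10, h1, h4]
      push_cast
      linear_combination (↑n + 1) * ε ^ n * en g 1 0 * ht
    · rw [mul01, h2, h3]
      push_cast
      linear_combination (↑n + 1) * ε ^ n * en g 0 1 * ht
    · rw [mul00, h2, h3]
      push_cast
      linear_combination (↑n + 1) * ε ^ n * en g 0 0 * ht - (↑n + 1) * ε ^ n * hd + (n + 1) * ε ^ n * hε
    · rw [mul11, h1, h4]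
      push_cast
      linear_combination (↑n + 1) * ε ^ n * en g 1 1 * ht - (↑n + 1) * ε ^ n * hd + (n + 1) * ε ^ n * hε

theorem en_one00 : en (1 : SpecialLinearGroup (Fin 2) F) 0 0 = 1 := rfl
theorem en_one01 : en (1 : SpecialLinearGroup (Fin 2) F) 0 1 = 0 := rfl
theorem en_one10 : en (1 : SpecialLinearGroup (Fin 2) F) 1 0 = 0 := rfl
theorem en_one11 : en (1 : SpecialLinearGroup (Fin 2) F) 1 1 = 1 := rfl

/-- an element of order prime to the characteristic has no double eigenvalue -/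
theorem no_double {p : ℕ} (hp : p.Prime) (h5 : 5 ≤ p) (hpF : (p : F) ≠ 0) {g : SpecialLinearGroup (Fin 2) F}
    (hg : g ^ p = 1) (hg1 : g ≠ 1) {ε : F} (hε : ε ^ 2 = 1) (ht : en g 0 0 + en g 1 1 = 2 * ε) : False := by
  obtain ⟨n, rfl⟩ : ∃ n, p = n + 1 := ⟨p - 1, by omega⟩
  obtain ⟨h1, h2, h3, h4⟩ := pow_entry hε ht n
  rw [hg] at h1 h2 h3 h4
  rw [en_one10] at h1
  rw [en_one01] at h2
  rw [en_one00] at h3
  have hε0 : ε ≠ 0 := by
    rintro rfl
    norm_num at hε
  have hn : ((n : F) + 1) ≠ 0 := by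
    have : ((n + 1 : ℕ) : F) ≠ 0 := hpF
    simpa using this
  have hc : (↑n + 1) * ε ^ n ≠ 0 := mul_ne_zero hn (pow_ne_zero _ hε0)
  have hγ : en g 1 0 = 0 := (mul_eq_zero.1 h1.symm).resolve_left hc
  have hβ : en g 0 1 = 0 := (mul_eq_zero.1 h2.symm).resolve_left hc
  have hd := det_eq g
  rw [hγ, hβ] at hd
  have hα : en g 0 0 = ε := by
    have h5 : (en g 0 0 - ε) ^ 2 = 0 := by
      linear_combination en g 0 0 * ht + hε - hd
    exact sub_eq_zero.1 (pow_eq_zero_iff two_ne_zero |>.1 h5)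
  have hδ : en g 1 1 = ε := by linear_combination ht - hα
  have hodd : ε ^ (n + 1) = ε := by
    have h6 : Odd (n + 1) := hp.odd_of_ne_two (by omega)
    obtain ⟨k, hk⟩ := h6
    rw [hk, pow_succ, pow_mul, hε, one_pow, one_mul]
  have h7 : ε = 1 := by
    rw [hα] at h3
    have h8 : (1 : F) = ε ^ (n + 1) := by
      rw [h3]; ring
    rw [← hodd]; exact h8.symm
  apply hg1
  apply ext_two
  · rw [hα, h7, en_one00]
  · rw [hβ, en_one01]
  · rw [hγ, en_one10]
  · rw [hδ, h7, en_one11]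

/-- elements of prime order `≥ 5` prime to the characteristic are real -/
theorem exists_inverting [Fintype F] {p : ℕ} (hp : p.Prime) (h5 : 5 ≤ p) (hpF : (p : F) ≠ 0)
    {g : SpecialLinearGroup (Fin 2) F} (hg : g ^ p = 1) (hg1 : g ≠ 1) :
    ∃ h : SpecialLinearGroup (Fin 2) F, g * h * g = h := by
  have hd := det_eq g
  by_cases hγ : en g 1 0 = 0
  · have hne : en g 0 0 - en g 1 1 ≠ 0 := by
      intro h
      rw [hγ] at hd
      refine no_double hp h5 hpF hg hg1 (ε := en g 0 0) ?_ ?_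
      · linear_combination hd + en g 0 0 * h
      · linear_combination - h
    refine exists_of_abc (a := - en g 0 1 / (en g 0 0 - en g 1 1))
      (b := -(1 + (- en g 0 1 / (en g 0 0 - en g 1 1)) ^ 2)) (c := 1) ?_ ?_
    · rw [div_mul_cancel₀ _ hne, hγ]; ring
    · ring
  · by_cases h2 : (2 : F) = 0
    · refine exists_of_abc (a := 1) (b := -(en g 0 0 - en g 1 1) / en g 1 0) (c := 0) ?_ ?_
      · rw [div_mul_cancel₀ _ hγ]; ring
      · linear_combination - h2
    · have hD : (en g 0 0 - en g 1 1) ^ 2 + 4 * en g 0 1 * en g 1 0 ≠ 0 := by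
        intro h
        refine no_double hp h5 hpF hg hg1 (ε := (en g 0 0 + en g 1 1) / 2) ?_ ?_
        · field_simp
          linear_combination h + 4 * hd
        · field_simp
      have hcard : Fintype.card F % 2 = 1 := FiniteField.odd_card_of_char_ne_two (fun h => h2 (by
        have := ringChar.spec F 2
        have h3 : ringChar F ∣ 2 := by rw [h]
        have h4 := (ringChar.spec F 2).2 h3
        exact_mod_cast h4))
      obtain ⟨x, y, hxy⟩ := FiniteField.exists_root_sum_quadratic (R := F)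
        (f := Polynomial.C (-1) * Polynomial.X ^ 2 + Polynomial.C (-1))
        (g := Polynomial.C ((en g 0 0 - en g 1 1) ^ 2 + 4 * en g 0 1 * en g 1 0) * Polynomial.X ^ 2)
        (by compute_degree! ) (by compute_degree!) hcard
      simp only [Polynomial.eval_add, Polynomial.eval_mul, Polynomial.eval_C, Polynomial.eval_pow, Polynomial.eval_X] at hxy
      refine exists_of_abc (a := x + (en g 0 0 - en g 1 1) * y)
        (b := -((x + (en g 0 0 - en g 1 1) * y) * (en g 0 0 - en g 1 1) + 2 * en g 1 0 * y * en g 0 1) / en g 1 0)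
        (c := 2 * en g 1 0 * y) ?_ ?_
      · rw [div_mul_cancel₀ _ hγ]; ring
      · field_simp
        linear_combination hxy

/-- primes dividing `q² - 1` -/
theorem r5_sl2_of_dvd [Fintype F] {p : ℕ} (hp : p.Prime) (h5 : 5 ≤ p) (hd : p ∣ Fintype.card F ^ 2 - 1) :
    R5 (SpecialLinearGroup (Fin 2) F) := by
  have : Fact p.Prime := ⟨hp⟩
  have hpF : (p : F) ≠ 0 := by
    intro h
    have h1 : ringChar F ∣ p := (ringChar.spec F p).1 h
    obtain ⟨k, hk, hq⟩ := FiniteField.card F (ringChar F)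
    have h2 : ringChar F = p := ((Nat.prime_dvd_prime_iff_eq hk hp).1 h1)
    have h3 : p ∣ Fintype.card F ^ 2 := by
      rw [hq, h2]
      exact dvd_pow (dvd_pow_self p (PNat.ne_zero _)) two_ne_zero
    have h4 : 1 ≤ Fintype.card F ^ 2 := Nat.one_le_pow _ _ Fintype.card_pos
    have h6 := (Nat.dvd_sub h3 hd)
    rw [Nat.sub_sub_self h4] at h6
    exact hp.one_lt.ne' (Nat.dvd_one.1 h6)
  have h1 : p ∣ Nat.card (SpecialLinearGroup (Fin 2) F) := by
    rw [ClassicalGeometry.PSL2Basic.card_SL2]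
    exact hd.mul_left _
  obtain ⟨g, hg⟩ := exists_prime_orderOf_dvd_card' p h1
  have hg1 : g ^ p = 1 := by rw [← hg, pow_orderOf_eq_one]
  have hg2 : g ≠ 1 := by
    rintro rfl
    rw [orderOf_one] at hg
    omega
  obtain ⟨h, hh⟩ := exists_inverting hp h5 hpF hg1 hg2
  exact R5.of_real' hp h5 hg1 hg2 hh

/-! ### Arithmetic -/

theorem smooth {n : ℕ} (hn : n ≠ 0) (h : ∀ p : ℕ, p.Prime → 5 ≤ p → ¬ p ∣ n) : ∃ a b : ℕ, n = 2 ^ a * 3 ^ b := by
  induction n using Nat.strong_induction_on with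
  | _ n ih =>
    by_cases h1 : n = 1
    · exact ⟨0, 0, by rw [h1]; norm_num⟩
    · have hp := Nat.minFac_prime h1
      have hd := Nat.minFac_dvd n
      obtain ⟨m, hm⟩ := hd
      have hm0 : m ≠ 0 := by
        rintro rfl
        rw [mul_zero] at hm
        exact hn hm
      have hlt : m < n := by
        have h2 := hp.two_le
        have h3 : 2 * m ≤ n := by
          calc 2 * m ≤ n.minFac * m := Nat.mul_le_mul_right m h2
            _ = n := hm.symm
        omega
      obtain ⟨a, b, hab⟩ := ih m hlt hm0 (fun p hp' h5 hd => h p hp' h5 (hm ▸ hd.mul_left _))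
      have h2 : n.minFac = 2 ∨ n.minFac = 3 := by
        have h5 : ¬ 5 ≤ n.minFac := fun h5 => h _ hp h5 (Nat.minFac_dvd n)
        have h3 := hp.two_le
        have h4 : n.minFac ≠ 4 := fun h4 => by rw [h4] at hp; exact absurd hp (by norm_num)
        omega
      rcases h2 with h2 | h2
      · exact ⟨a + 1, b, by rw [hm, h2, hab]; ring⟩
      · exact ⟨a, b + 1, by rw [hm, h2, hab]; ring⟩

theorem two_three {a d : ℕ} (h : 2 ^ a + 1 = 3 ^ d) : a = 1 ∨ a = 3 := by
  have h3 : 3 ^ d % 80 = 1 ∨ 3 ^ d % 80 = 3 ∨ 3 ^ d % 80 = 9 ∨ 3 ^ d % 80 = 27 := by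
    clear h
    induction d with
    | zero => left; norm_num
    | succ d ih => rw [pow_succ]; omega
  rcases Nat.lt_or_ge a 4 with ha | ha
  · interval_cases a
    · exfalso; norm_num at h; omega
    · left; rfl
    · exfalso; norm_num at h; omega
    · right; rfl
  · exfalso
    obtain ⟨b, rfl⟩ := Nat.exists_eq_add_of_le ha
    have h5 : 2 ^ (4 + b) % 5 ≠ 0 := by
      intro h6
      have := (Nat.Prime.dvd_of_dvd_pow (by norm_num : Nat.Prime 5) (Nat.dvd_of_mod_eq_zero h6))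
      revert this; norm_num
    rw [pow_add] at h h5
    omega

theorem three_two {b c : ℕ} (h : 3 ^ b + 1 = 2 ^ c) : b ≤ 1 := by
  have h3 : 3 ^ b % 8 = 1 ∨ 3 ^ b % 8 = 3 := by
    clear h
    induction b with
    | zero => left; norm_num
    | succ d ih => rw [pow_succ]; omega
  have hc : c ≤ 2 := by
    by_contra hc
    obtain ⟨k, rfl⟩ := Nat.exists_eq_add_of_le (show 3 ≤ c by omega)
    rw [pow_add] at h
    omega
  have h4 : 2 ^ c ≤ 2 ^ 2 := Nat.pow_le_pow_right (by norm_num) hc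
  by_contra hb
  have h5 : 3 ^ 2 ≤ 3 ^ b := Nat.pow_le_pow_right (by norm_num) (by omega)
  omega

/-- consecutive numbers without prime factors `≥ 5` -/
theorem smooth_pair {k : ℕ} (hk : 2 ≤ k) (h : ∀ p : ℕ, p.Prime → 5 ≤ p → ¬ p ∣ k * (k + 1)) :
    k = 2 ∨ k = 3 ∨ k = 8 := by
  obtain ⟨a, b, hab⟩ := smooth (n := k) (by omega) (fun p hp h5 hd => h p hp h5 (hd.mul_right _))
  obtain ⟨c, d, hcd⟩ := smooth (n := k + 1) (by omega) (fun p hp h5 hd => h p hp h5 (hd.mul_left _))
  have h2 : a = 0 ∨ c = 0 := by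
    by_contra hc
    push Not at hc
    have h3 : 2 ∣ k := by rw [hab]; exact (dvd_pow_self 2 hc.1).mul_right _
    have h4 : 2 ∣ k + 1 := by rw [hcd]; exact (dvd_pow_self 2 hc.2).mul_right _
    omega
  have h3 : b = 0 ∨ d = 0 := by
    by_contra hc
    push Not at hc
    have h3 : 3 ∣ k := by rw [hab]; exact (dvd_pow_self 3 hc.1).mul_left _
    have h4 : 3 ∣ k + 1 := by rw [hcd]; exact (dvd_pow_self 3 hc.2).mul_left _
    omega
  rcases h2 with rfl | rfl <;> rcases h3 with rfl | rfl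
  · norm_num at hab; omega
  · -- k = 3 ^ b
    norm_num at hab hcd
    rw [hab] at hcd
    have := three_two hcd
    interval_cases b
    · norm_num at hab; omega
    · right; left; omega
  · norm_num at hab hcd
    rw [hab] at hcd
    rcases two_three hcd with rfl | rfl
    · left; omega
    · right; right; omega
  · norm_num at hcd
    omega

theorem exists_prime_or {q : ℕ} (hq : IsPrimePow q) (h4 : 4 ≤ q) :
    (∃ p : ℕ, p.Prime ∧ 5 ≤ p ∧ p ∣ q ^ 2 - 1) ∨ q = 5 ∨ q = 7 ∨ q = 17 := by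
  by_contra hcon
  push Not at hcon
  obtain ⟨hp, h5, h7, h17⟩ := hcon
  have h1 : q ^ 2 - 1 = (q - 1) * (q + 1) := by
    obtain ⟨r, rfl⟩ : ∃ r, q = r + 1 := ⟨q - 1, by omega⟩
    have : (r + 1) ^ 2 = r * (r + 2) + 1 := by ring
    rw [this, Nat.add_sub_cancel, Nat.add_sub_cancel]
  rcases Nat.even_or_odd q with he | ho
  · obtain ⟨p, n, hpp, hn, rfl⟩ := (isPrimePow_nat_iff _).1 hq
    have hp2 : p = 2 := by
      have := (Nat.even_pow.1 he).1
      exact (hpp.even_iff).1 this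
    subst hp2
    obtain ⟨a, b, hab⟩ := smooth (n := (2 ^ n) ^ 2 - 1) (by
      have : 4 ^ 2 ≤ (2 ^ n) ^ 2 := Nat.pow_le_pow_left h4 2
      omega) (fun p hp' h5' hd => hp p hp' h5' hd)
    have h16 : 4 ^ 2 ≤ (2 ^ n) ^ 2 := Nat.pow_le_pow_left h4 2
    have ha : a = 0 := by
      by_contra ha
      have h2 : 2 ∣ (2 ^ n) ^ 2 - 1 := by rw [hab]; exact (dvd_pow_self 2 ha).mul_right _
      have h3 : 2 ∣ (2 ^ n) ^ 2 := dvd_pow (dvd_pow_self 2 hn.ne') two_ne_zero
      omega
    subst ha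
    rw [pow_zero, one_mul] at hab
    have h6 : 3 ^ b + 1 = 2 ^ (n * 2) := by rw [pow_mul]; omega
    have h7 := three_two h6
    rw [pow_mul] at h6
    have h8 : 3 ^ b ≤ 3 ^ 1 := Nat.pow_le_pow_right (by norm_num) h7
    omega
  · obtain ⟨k, rfl⟩ := ho
    rcases smooth_pair (k := k) (by omega) (fun p hp' h5' hd => hp p hp' h5' (by
      rw [h1]
      have h2 : (2 * k + 1 - 1) * (2 * k + 1 + 1) = 4 * (k * (k + 1)) := by
        rw [Nat.add_sub_cancel]; ring
      rw [h2]
      exact hd.mul_left _)) with h | h | h <;> omega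

/-- unipotent elements, `q ≡ 1 mod 4` -/
theorem r5_sl2_uni [Fintype F] (hp : (Fintype.card F).Prime) (h5 : 5 ≤ Fintype.card F)
    (h4 : Fintype.card F % 4 = 1) : R5 (SpecialLinearGroup (Fin 2) F) := by
  obtain ⟨i, hi⟩ := (FiniteField.isSquare_neg_one_iff (F := F)).2 (by omega)
  have hi0 : i ≠ 0 := by
    rintro rfl
    norm_num at hi
  have hii : i * i⁻¹ = 1 := mul_inv_cancel₀ hi0
  let u : SpecialLinearGroup (Fin 2) F := ⟨!![1, 1; 0, 1], by rw [Matrix.det_fin_two_of]; ring⟩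
  let h : SpecialLinearGroup (Fin 2) F := ⟨!![i, 0; 0, i⁻¹], by rw [Matrix.det_fin_two_of, hii]; ring⟩
  have u00 : en u 0 0 = 1 := rfl
  have u01 : en u 0 1 = 1 := rfl
  have u10 : en u 1 0 = 0 := rfl
  have u11 : en u 1 1 = 1 := rfl
  have h00 : en h 0 0 = i := rfl
  have h01 : en h 0 1 = 0 := rfl
  have h10 : en h 1 0 = 0 := rfl
  have h11 : en h 1 1 = i⁻¹ := rfl
  have hinv : i⁻¹ = - i := by
    rw [inv_eq_iff_eq_inv, ← mul_left_cancel₀ hi0 (b := i) (c := (-i)⁻¹)]
    rw [← mul_right_inj' hi0]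
    rw [← hi]
    field_simp
  refine R5.of_real' hp h5 (x := u) (g := h) ?_ ?_ ?_
  · obtain ⟨n, hn⟩ : ∃ n, Fintype.card F = n + 1 := ⟨Fintype.card F - 1, by omega⟩
    have hc : ((n : F) + 1) = 0 := by
      have h1 : ((Fintype.card F : ℕ) : F) = 0 := FiniteField.cast_card_eq_zero F
      rw [hn] at h1
      simpa using h1
    obtain ⟨h1, h2, h3, h4⟩ := pow_entry (g := u) (ε := 1) (by ring) (by rw [u00, u11]; ring) n
    rw [hn]
    apply ext_two
    · rw [h3, u00, hc, en_one00]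
      linear_combination - hc
    · rw [h2, u01, hc, en_one01]; ring
    · rw [h1, u10, en_one10]; ring
    · rw [h4, u11, hc, en_one11]
      linear_combination - hc
  · intro h1
    have h2 := congrArg (fun g => en g 0 1) h1
    simp only [u01, en_one01] at h2
    exact one_ne_zero h2
  · apply ext_two
    · rw [mul00, mul00, mul01, u00, u01, u10, h00, h01, h10, h11]; ring
    · rw [mul01, mul00, mul01, u00, u01, u11, h00, h01, h10, h11, hinv]; ring
    · rw [mul10, mul10, mul11, u00, u10, u11, h00, h01, h10, h11]; ring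
    · rw [mul11, mul10, mul11, u01, u10, u11, h00, h01, h10, h11]; ring

/-- **`SL₂(q)`**, `q ≥ 4`, `q ≠ 7` -/
theorem r5_sl2 [Fintype F] (h4 : 4 ≤ Fintype.card F) (h7 : Fintype.card F ≠ 7) :
    R5 (SpecialLinearGroup (Fin 2) F) := by
  rcases exists_prime_or (FiniteField.isPrimePow_card F) h4 with ⟨p, hp, h5, hd⟩ | h | h | h
  · exact r5_sl2_of_dvd hp h5 hd
  · exact r5_sl2_uni (by rw [h]; norm_num) (by omega) (by rw [h])
  · exact absurd h h7
  · exact r5_sl2_uni (by rw [h]; norm_num) (by omega) (by rw [h])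

end Cfsg.Agent.H327.D5
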