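import Mathlib
import Cfsg.Prelude.Def_CaseTheorems
import Cfsg.Prelude.Def_Classical
import Cfsg.Agent.LieRecognition.PSUThreeSylow

/-!
# The 3-rank of `L₃(3)` and `U₃(3)`
-/

set_option autoImplicit false
set_option linter.unusedSectionVars false

namespace Cfsg.Agent.H327.D5.Three

open Matrix Subgroup

/-! ### groups with nonabelian Sylow 3-subgroup of order 27 -/

theorem pRankLE_two {G : Type*} [Group G] [Finite G] {m : ℕ} (hm : ¬ 3 ∣ m) (hG : Nat.card G = 27 * m)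
    (U : Subgroup G) (hU : IsPGroup 3 U) {x y : G} (hx : x ∈ U) (hy : y ∈ U) (hxy : x * y ≠ y * x) :
    Cfsg.PRankLE 3 2 G := by
  intro A hA h3
  have : Fact (Nat.Prime 3) := ⟨Nat.prime_three⟩
  have hAp : IsPGroup 3 A := fun a => ⟨1, by rw [pow_one]; exact Subtype.ext (h3 a a.2)⟩
  obtain ⟨k, hk⟩ := hAp.exists_card_eq
  rw [hk]
  refine Nat.pow_le_pow_right (by norm_num) ?_
  by_contra hlt
  have hk3 : k ≤ 3 := by
    have h1 : 3 ^ k ∣ 3 ^ 3 * m := by
      rw [← hk, show (3 : ℕ) ^ 3 = 27 from rfl, ← hG]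
      exact Subgroup.card_subgroup_dvd_card A
    have h2 : Nat.Coprime (3 ^ k) m := Nat.Coprime.pow_left _ ((Nat.Prime.coprime_iff_not_dvd Nat.prime_three).2 hm)
    exact (Nat.pow_dvd_pow_iff_le_right (by norm_num)).1 (h2.dvd_of_dvd_mul_right h1)
  have hk' : k = 3 := by omega
  subst hk'
  obtain ⟨P, hP⟩ := hAp.exists_le_sylow
  obtain ⟨Q, hQ⟩ := hU.exists_le_sylow
  have hPc : Nat.card P = 27 := by
    obtain ⟨n, hn⟩ := P.isPGroup'.exists_card_eq
    have h1 : Nat.card P ∣ 27 * m := hG ▸ Subgroup.card_subgroup_dvd_card (P : Subgroup G)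
    have h2 : Nat.card A ≤ Nat.card P := Subgroup.card_le_of_le hP
    have h3 : Nat.Coprime (3 ^ n) m := Nat.Coprime.pow_left _ ((Nat.Prime.coprime_iff_not_dvd Nat.prime_three).2 hm)
    rw [hn] at h1
    have h4 := h3.dvd_of_dvd_mul_right h1
    rw [hn] at h2 ⊢
    have h5 := Nat.le_of_dvd (by norm_num) h4
    rw [hk] at h2
    omega
  have hPA : A = P := Subgroup.eq_of_le_of_card_ge hP (by rw [hPc, hk]; norm_num)
  obtain ⟨g, hg⟩ := MulAction.exists_smul_eq G P Q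
  have hmem : ∀ z ∈ U, g⁻¹ * z * g ∈ A := by
    intro z hz
    have h1 : z ∈ (Q : Subgroup G) := hQ hz
    rw [← hg, Sylow.coe_subgroup_smul, Subgroup.mem_pointwise_smul_iff_inv_smul_mem, ← hPA] at h1
    have h2 : (MulAut.conj g)⁻¹ z = g⁻¹ * z * g := by simp
    rw [← h2]
    exact h1
  apply hxy
  have h1 : (g⁻¹ * x * g) * (g⁻¹ * y * g) = (g⁻¹ * y * g) * (g⁻¹ * x * g) := by
    have := hA.is_comm.comm (⟨_, hmem x hx⟩ : A) ⟨_, hmem y hy⟩
    exact congrArg Subtype.val this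
  calc x * y = g * ((g⁻¹ * x * g) * (g⁻¹ * y * g)) * g⁻¹ := by group
    _ = g * ((g⁻¹ * y * g) * (g⁻¹ * x * g)) * g⁻¹ := by rw [h1]
    _ = y * x := by group

/-- the quotient by the centre -/
theorem pRankLE_quot {S : Type*} [Group S] [Finite S] {m : ℕ} (hm : ¬ 3 ∣ m)
    (hG : Nat.card (S ⧸ center S) = 27 * m) (U : Subgroup S) (hU : IsPGroup 3 U) {x y z d : S} (hx : x ∈ U)
    (hy : y ∈ U) (hz : z * (y * x) = x * y) (hd : z * d ≠ d * z) : Cfsg.PRankLE 3 2 (S ⧸ center S) := by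
  refine pRankLE_two hm hG (U.map (QuotientGroup.mk' (center S))) (hU.map _) (mem_map_of_mem _ hx)
    (mem_map_of_mem _ hy) ?_
  rw [← map_mul, ← map_mul]
  intro h
  have h1 : (y * x)⁻¹ * (x * y) ∈ center S := by
    rw [← QuotientGroup.eq]
    exact h.symm
  have h2 : z ∈ center S := by
    have h3 : z = (y * x) * ((y * x)⁻¹ * (x * y)) * (y * x)⁻¹ := by rw [← hz]; group
    rw [h3]
    exact (inferInstance : (center S).Normal).conj_mem _ h1 _
  exact hd ((mem_center_iff.1 h2) d).symm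

/-! ### unitriangular matrices -/

variable {F : Type*} [Field F]

/-- upper unitriangular matrices -/
def UT (F : Type*) [Field F] : Subgroup (SpecialLinearGroup (Fin 3) F) where
  carrier := {g | g.1 0 0 = 1 ∧ g.1 1 1 = 1 ∧ g.1 2 2 = 1 ∧ g.1 1 0 = 0 ∧ g.1 2 0 = 0 ∧ g.1 2 1 = 0}
  one_mem' := by simp
  mul_mem' := by
    rintro a b ⟨a1, a2, a3, a4, a5, a6⟩ ⟨b1, b2, b3, b4, b5, b6⟩
    refine ⟨?_, ?_, ?_, ?_, ?_, ?_⟩ <;>
      simp [Matrix.mul_apply, Fin.sum_univ_three, a1, a2, a3, a4, a5, a6, b1, b2, b3, b4, b5, b6]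
  inv_mem' := by
    rintro a ⟨a1, a2, a3, a4, a5, a6⟩
    refine ⟨?_, ?_, ?_, ?_, ?_, ?_⟩ <;>
      simp [Matrix.SpecialLinearGroup.coe_inv, Matrix.adjugate_fin_three, a1, a2, a3, a4, a5, a6]

theorem mem_UT {g : SpecialLinearGroup (Fin 3) F} : g ∈ UT F ↔ (g.1 0 0 = 1 ∧ g.1 1 1 = 1 ∧ g.1 2 2 = 1 ∧
    g.1 1 0 = 0 ∧ g.1 2 0 = 0 ∧ g.1 2 1 = 0) := Iff.rfl

theorem ext_mat {g h : SpecialLinearGroup (Fin 3) F} (H : ∀ i j, g.1 i j = h.1 i j) : g = h :=
  Subtype.ext (Matrix.ext H)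

theorem mul_entry (g h : SpecialLinearGroup (Fin 3) F) (i j : Fin 3) :
    (g * h).1 i j = g.1 i 0 * h.1 0 j + g.1 i 1 * h.1 1 j + g.1 i 2 * h.1 2 j := by
  rw [Matrix.SpecialLinearGroup.coe_mul, Matrix.mul_apply, Fin.sum_univ_three]

theorem UT_cube (h3 : (3 : F) = 0) {g : SpecialLinearGroup (Fin 3) F} (hg : g ∈ UT F) : g ^ 3 = 1 := by
  obtain ⟨a1, a2, a3, a4, a5, a6⟩ := hg
  apply Subtype.ext
  rw [pow_succ, pow_two]
  ext i j
  fin_cases i <;> fin_cases j <;>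
    simp [Matrix.mul_apply, Fin.sum_univ_three, a1, a2, a3, a4, a5, a6] <;> grind

/-- conjugates of unitriangular matrices -/
def UTc (T : SpecialLinearGroup (Fin 3) F) : Subgroup (SpecialLinearGroup (Fin 3) F) :=
  (UT F).comap (MulAut.conj T⁻¹).toMonoidHom

theorem UTc_cube (h3 : (3 : F) = 0) (T : SpecialLinearGroup (Fin 3) F) {g : SpecialLinearGroup (Fin 3) F}
    (hg : g ∈ UTc T) : g ^ 3 = 1 := by
  have h1 := UT_cube h3 (Subgroup.mem_comap.1 hg)
  have h2 : (MulAut.conj T⁻¹).toMonoidHom (g ^ 3) = 1 := by rw [map_pow]; exact h1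
  exact (map_eq_one_iff _ (MulAut.conj T⁻¹).injective).1 h2

theorem mem_UTc {T g u : SpecialLinearGroup (Fin 3) F} (hu : u ∈ UT F) (h : g * T = T * u) : g ∈ UTc T := by
  rw [UTc, Subgroup.mem_comap]
  have : (MulAut.conj T⁻¹).toMonoidHom g = u := by
    show T⁻¹ * g * T⁻¹⁻¹ = u
    rw [inv_inv, mul_assoc, h, inv_mul_cancel_left]
  rw [this]
  exact hu

theorem isPGroup_sub (h3 : (3 : F) = 0) (T : SpecialLinearGroup (Fin 3) F)
    (S : Subgroup (SpecialLinearGroup (Fin 3) F)) : IsPGroup 3 ((UTc T).subgroupOf S) := by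
  rintro ⟨g, hg⟩
  refine ⟨1, Subtype.ext (Subtype.ext ?_)⟩
  rw [pow_one]
  exact UTc_cube h3 T hg

/-! ### `PSL₃(3)` -/

/-- `1 + E₀₁` -/
def xL : SpecialLinearGroup (Fin 3) F := ⟨!![1, 1, 0; 0, 1, 0; 0, 0, 1], by simp [Matrix.det_fin_three]⟩

/-- `1 + E₁₂` -/
def yL : SpecialLinearGroup (Fin 3) F := ⟨!![1, 0, 0; 0, 1, 1; 0, 0, 1], by simp [Matrix.det_fin_three]⟩

/-- `1 + E₀₂` -/
def zL : SpecialLinearGroup (Fin 3) F := ⟨!![1, 0, 1; 0, 1, 0; 0, 0, 1], by simp [Matrix.det_fin_three]⟩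

/-- `diag(-1,-1,1)` -/
def dL : SpecialLinearGroup (Fin 3) F := ⟨!![-1, 0, 0; 0, -1, 0; 0, 0, 1], by simp [Matrix.det_fin_three]⟩

theorem pRankLE_psl [Fintype F] (h3 : (3 : F) = 0) {m : ℕ} (hm : ¬ 3 ∣ m)
    (hG : Nat.card (ProjectiveSpecialLinearGroup (Fin 3) F) = 27 * m) :
    Cfsg.PRankLE 3 2 (ProjectiveSpecialLinearGroup (Fin 3) F) := by
  refine pRankLE_quot (S := SpecialLinearGroup (Fin 3) F) hm hG (UTc 1) (fun g => ?_) (x := xL) (y := yL) (z := zL)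
    (d := dL) ?_ ?_ ?_ ?_
  · exact ⟨1, Subtype.ext (by rw [pow_one]; exact UTc_cube h3 1 g.2)⟩
  · refine mem_UTc (u := xL) ?_ (by rw [mul_one, one_mul])
    rw [mem_UT]
    simp [xL]
  · refine mem_UTc (u := yL) ?_ (by rw [mul_one, one_mul])
    rw [mem_UT]
    simp [yL]
  · refine ext_mat fun i j => ?_
    simp only [mul_entry]
    fin_cases i <;> fin_cases j <;> simp [xL, yL, zL]
  · intro h
    have h1 : (zL * dL : SpecialLinearGroup (Fin 3) F).1 0 2 = (dL * zL).1 0 2 := by rw [h]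
    simp only [mul_entry] at h1
    simp [zL, dL] at h1
    have h2 : (1 : F) = 0 := by linear_combination h3 - h1
    exact one_ne_zero h2

/-! ### `PSU₃(3)` -/

/-- the base change -/
def TU : SpecialLinearGroup (Fin 3) F := ⟨!![1, 1, 1; 1, -1, 0; 1, 0, 0], by simp [Matrix.det_fin_three]⟩

/-- the permutation matrix -/
def xU : SpecialLinearGroup (Fin 3) F := ⟨!![0, 1, 0; 0, 0, 1; 1, 0, 0], by simp [Matrix.det_fin_three]⟩

/-- the permutation matrix after the base change -/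
def xU' : SpecialLinearGroup (Fin 3) F := ⟨!![1, 1, 1; 0, 1, 1; 0, 0, 1], by simp [Matrix.det_fin_three]⟩

/-- a second unipotent element -/
def yU (h3 : (3 : F) = 0) (e : F) (he : e * e = -1) : SpecialLinearGroup (Fin 3) F :=
  ⟨!![-e, -1, e - 1; -1, e, -e - 1; e - 1, -e - 1, 0], by
    simp [Matrix.det_fin_three]
    grind⟩

/-- the second unipotent element after the base change -/
def yU' (e : F) : SpecialLinearGroup (Fin 3) F := ⟨!![1, -e, e - 1; 0, 1, e; 0, 0, 1], by simp [Matrix.det_fin_three]⟩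

/-- the commutator -/
def zU (h3 : (3 : F) = 0) (e : F) : SpecialLinearGroup (Fin 3) F :=
  ⟨!![1 - e, -e, -e; -e, 1 - e, -e; -e, -e, 1 - e], by
    simp [Matrix.det_fin_three]
    grind⟩

theorem pRankLE_psu [Fintype F] (h3 : (3 : F) = 0) {e : F} (he : e * e = -1) {m : ℕ} (hm : ¬ 3 ∣ m)
    (hG : Nat.card (Cfsg.PSU 3 F 3) = 27 * m) : Cfsg.PRankLE 3 2 (Cfsg.PSU 3 F 3) := by
  have : Fact (Nat.Prime 3) := ⟨Nat.prime_three⟩
  have hc : CharP F 3 := by
    obtain ⟨r, hr⟩ := CharP.exists F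
    have hrp : r.Prime := (CharP.char_is_prime_or_zero F r).resolve_right (CharP.char_ne_zero_of_finite F r)
    have h1 : r ∣ 3 := (CharP.cast_eq_zero_iff F r 3).1 (by exact_mod_cast h3)
    rwa [(Nat.prime_dvd_prime_iff_eq hrp Nat.prime_three).1 h1] at hr
  have hs : ∀ x : F, frobenius F 3 x = x ^ 3 := fun x => rfl
  have he3 : e ^ 3 = -e := by rw [pow_succ, pow_two, he]; ring
  have hmem : ∀ g : SpecialLinearGroup (Fin 3) F, (g : Matrix (Fin 3) (Fin 3) F)ᵀ *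
      (g : Matrix (Fin 3) (Fin 3) F).map (frobenius F 3) = 1 → g ∈ Cfsg.SU 3 F 3 :=
    fun g hg => (LieRecognition.PSUThreeSylow.mem_SU_iff hs g).2 hg
  have hx : (xU : SpecialLinearGroup (Fin 3) F) ∈ Cfsg.SU 3 F 3 := by
    refine hmem _ ?_
    ext i j
    fin_cases i <;> fin_cases j <;> simp [xU, Matrix.mul_apply, Fin.sum_univ_three]
  have hd : (dL : SpecialLinearGroup (Fin 3) F) ∈ Cfsg.SU 3 F 3 := by
    refine hmem _ ?_
    ext i j
    fin_cases i <;> fin_cases j <;> simp [dL, Matrix.mul_apply, Fin.sum_univ_three]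
  have hf : frobenius F 3 e = -e := he3
  have hf1 : frobenius F 3 1 = 1 := map_one _
  have hy : yU h3 e he ∈ Cfsg.SU 3 F 3 := by
    refine hmem _ ?_
    ext i j
    fin_cases i <;> fin_cases j <;>
      simp [yU, Matrix.mul_apply, Fin.sum_univ_three, -frobenius_def, hf] <;> grind
  have hzyx : zU h3 e * (yU h3 e he * xU) = xU * yU h3 e he := by
    refine ext_mat fun i j => ?_
    simp only [mul_entry]
    fin_cases i <;> fin_cases j <;> simp [xU, yU, zU] <;> grind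
  have hz : zU h3 e ∈ Cfsg.SU 3 F 3 := by
    have h1 : zU h3 e = xU * yU h3 e he * (yU h3 e he * xU)⁻¹ := by rw [← hzyx]; group
    rw [h1]
    exact mul_mem (mul_mem hx hy) (inv_mem (mul_mem hy hx))
  refine pRankLE_quot (S := Cfsg.SU 3 F 3) hm hG ((UTc TU).subgroupOf _) (isPGroup_sub h3 TU _)
    (x := ⟨xU, hx⟩) (y := ⟨yU h3 e he, hy⟩) (z := ⟨zU h3 e, hz⟩) (d := ⟨dL, hd⟩) ?_ ?_ ?_ ?_
  · refine mem_UTc (u := xU') (by rw [mem_UT]; simp [xU']) (ext_mat fun i j => ?_)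
    simp only [mul_entry]
    fin_cases i <;> fin_cases j <;> simp [xU, xU', TU] <;> grind
  · refine mem_UTc (u := yU' e) (by rw [mem_UT]; simp [yU']) (ext_mat fun i j => ?_)
    simp only [mul_entry]
    fin_cases i <;> fin_cases j <;> simp [yU, yU', TU] <;> grind
  · exact Subtype.ext hzyx
  · intro h
    have h1 : (zU h3 e * dL : SpecialLinearGroup (Fin 3) F).1 0 2 = (dL * zU h3 e).1 0 2 :=
      congrArg (fun g : Cfsg.SU 3 F 3 => g.1.1 0 2) h
    simp only [mul_entry] at h1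
    simp [zU, dL] at h1
    have h2 : (1 : F) = 0 := by grind
    exact one_ne_zero h2

end Cfsg.Agent.H327.D5.Three
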